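import Mathlib

/-!
# The Hecke algebra of type `G₂` with parameters `8`, `2`: the collinearity operator `e b`

(after `Cfsg.Agent.H996.Deg.HexAlg`, which has the parameters `3`, `3`)
-/

set_option autoImplicit false

namespace Cfsg.Agent.H296.KF.HexAlg

variable {R : Type*} [Ring R] {a b : R}

theorem ee (ha : a * a = 8 + 7 * a) : (1 + a) * (1 + a) = 9 * (1 + a) := by
  linear_combination (norm := (noncomm_ring; simp)) ha

theorem ea (ha : a * a = 8 + 7 * a) : (1 + a) * a = 8 * (1 + a) := by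
  linear_combination (norm := (noncomm_ring; simp)) ha

theorem ae (ha : a * a = 8 + 7 * a) : a * (1 + a) = 8 * (1 + a) := by
  linear_combination (norm := (noncomm_ring; simp)) ha

theorem h1 (ha : a * a = 8 + 7 * a) (hb : b * b = 2 + b) :
    (1 + a) * b * ((1 + a) * b * (1 + a)) =
      18 * (1 + a) + (1 + a) * b * (1 + a) + (1 + a) * b * a * b * (1 + a) := by
  linear_combination (norm := noncomm_ring) (1 + a) * hb * (1 + a) + 2 * ee ha

theorem h2 (ha : a * a = 8 + 7 * a) (hb : b * b = 2 + b) :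
    (1 + a) * b * ((1 + a) * b * a * b * (1 + a)) =
      16 * ((1 + a) * b * (1 + a)) + (1 + a) * b * a * b * (1 + a) + (1 + a) * b * a * b * a * b * (1 + a) := by
  linear_combination (norm := noncomm_ring) (1 + a) * hb * (a * b * (1 + a)) + 2 * (ea ha * (b * (1 + a)))

theorem h3 (ha : a * a = 8 + 7 * a) (hb : b * b = 2 + b) (hab : b * a * b * a * b * a = a * b * a * b * a * b) :
    (1 + a) * b * ((1 + a) * b * a * b * a * b * (1 + a)) =
      144 * ((1 + a) * b * a * b * (1 + a)) + 9 * ((1 + a) * b * a * b * a * b * (1 + a)) := by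
  linear_combination (norm := noncomm_ring) (1 + a) * hb * (a * b * a * b * (1 + a)) +
    2 * (ea ha * (b * a * b * (1 + a))) + (1 + a) * hab * (b * (1 + a)) +
    (1 + a) * (a * b * a * b * a) * hb * (1 + a) + ea ha * (b * a * b * a * (2 + b) * (1 + a)) +
    16 * ((1 + a) * b * a * b * ae ha)

/-- **The relation** `(A - 18)(A - 5)(A + 3)(A + 9) e = 0`, `A = e b` -/
theorem rel (ha : a * a = 8 + 7 * a) (hb : b * b = 2 + b) (hab : b * a * b * a * b * a = a * b * a * b * a * b) :
    (1 + a) * b * ((1 + a) * b * ((1 + a) * b * ((1 + a) * b * (1 + a)))) -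
      11 * ((1 + a) * b * ((1 + a) * b * ((1 + a) * b * (1 + a)))) - 159 * ((1 + a) * b * ((1 + a) * b * (1 + a))) +
      459 * ((1 + a) * b * (1 + a)) + 2430 * (1 + a) = 0 := by
  have k1 := h1 ha hb
  have k2 := h2 ha hb
  have k3 := h3 ha hb hab
  generalize hx1 : (1 + a) * b * (1 + a) = x1 at *
  generalize hx2 : (1 + a) * b * a * b * (1 + a) = x2 at *
  generalize hx3 : (1 + a) * b * a * b * a * b * (1 + a) = x3 at *
  generalize hz : (1 + a) * b = z at *
  rw [k1]
  have e1 : z * (18 * (1 + a) + x1 + x2) = 18 * x1 + (18 * (1 + a) + x1 + x2) + (16 * x1 + x2 + x3) := by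
    rw [← hx1]
    rw [← hx1] at k1 k2
    linear_combination (norm := noncomm_ring) k1 + k2
  rw [e1]
  have e2 : z * (18 * x1 + (18 * (1 + a) + x1 + x2) + (16 * x1 + x2 + x3)) =
      35 * (18 * (1 + a) + x1 + x2) + 18 * x1 + 2 * (16 * x1 + x2 + x3) + (144 * x2 + 9 * x3) := by
    have hz1 : z * (1 + a) = x1 := hx1
    linear_combination (norm := noncomm_ring) 18 * hz1 + 35 * k1 + 2 * k2 + k3
  rw [e2]
  noncomm_ring

end Cfsg.Agent.H296.KF.HexAlg
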