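import Cfsg.Agent.H996.Deg.Hexagon
import Cfsg.Agent.H296.KF.HexAlg

/-!
# The collinearity graph of a building of type `G₂` with parameters `(8, 2)`

(after `Cfsg.Agent.H996.Deg.Hexagon`, which has the parameters `(3, 3)`)
-/

set_option autoImplicit false
set_option linter.unusedSectionVars false
set_option linter.unusedVariables false

namespace Cfsg.Agent.H296.KF.Hexagon

open Cfsg.Agent.H996.Deg Cfsg.Agent.H996.Deg.Hex Classical

section Traces

variable {C : Type*} [Fintype C] {a b : Matrix C C ℂ}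

theorem sq_eb (hb : b * b = 2 + b) :
    (1 + a) * b * ((1 + a) * b) = 2 * (1 + a) + (1 + a) * b + (1 + a) * b * a * b := by
  linear_combination (norm := noncomm_ring) (1 + a) * hb

theorem trace_sq (hb : b * b = 2 + b) (ta : a.trace = 0) (tb : b.trace = 0) (tab : (a * b).trace = 0)
    (t3 : (b * a * b).trace = 0) (t4 : (a * b * a * b).trace = 0) :
    ((1 + a) * b * ((1 + a) * b)).trace = 2 * Fintype.card C := by
  rw [sq_eb hb, Matrix.trace_add, Matrix.trace_add, trace_two, trace_e ta, trace_eb tb tab,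
    trace_ebab t3 t4]
  ring

theorem trace_sixteen (x : Matrix C C ℂ) : (16 * x).trace = 16 * x.trace := by
  have e : (16 : Matrix C C ℂ) * x = 2 * (2 * (2 * (2 * x))) := by noncomm_ring
  rw [e, trace_two, trace_two, trace_two, trace_two]
  ring

theorem trace_cb (ha : a * a = 8 + 7 * a) (hb : b * b = 2 + b) (ta : a.trace = 0) (tb : b.trace = 0)
    (tab : (a * b).trace = 0) (t3 : (b * a * b).trace = 0) (t4 : (a * b * a * b).trace = 0)
    (t5 : (b * a * b * a * b).trace = 0) (t6 : (a * b * a * b * a * b).trace = 0) :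
    ((1 + a) * b * ((1 + a) * b * ((1 + a) * b))).trace = 2 * Fintype.card C := by
  have e1 : (1 + a) * b * ((1 + a) * b * ((1 + a) * b)) = 2 * ((1 + a) * b * (1 + a)) +
      (1 + a) * b * ((1 + a) * b) + (16 * ((1 + a) * b) + (1 + a) * b * a * b +
        (b * a * b * a * b + a * b * a * b * a * b)) := by
    linear_combination (norm := noncomm_ring) (1 + a) * b * (1 + a) * hb + ((1 + a) * hb * (b - b)) +
      (1 + a) * hb * (a * b) + 2 * (HexAlg.ea ha * b)
  have e2 : ((1 + a) * b * (1 + a)).trace = 0 := by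
    rw [Matrix.trace_mul_comm, ← mul_assoc, HexAlg.ee ha]
    have e3 : (9 : Matrix C C ℂ) * (1 + a) * b = 3 * (3 * ((1 + a) * b)) := by noncomm_ring
    rw [e3, trace_three, trace_three, trace_eb tb tab, mul_zero, mul_zero]
  rw [e1, Matrix.trace_add, Matrix.trace_add, trace_two, e2, trace_sq hb ta tb tab t3 t4,
    Matrix.trace_add, Matrix.trace_add, trace_sixteen, trace_eb tb tab, trace_ebab t3 t4,
    Matrix.trace_add, t5, t6]
  ring

end Traces

section Col

variable {C X : Type*} [Fintype C] [Fintype X] (N : C → X)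

/-- the relation and the traces for `J ᵀ b J` -/
theorem op (a b : Matrix C C ℂ) (ha : a * a = 8 + 7 * a) (hb : b * b = 2 + b)
    (hab : b * a * b * a * b * a = a * b * a * b * a * b) (ta : a.trace = 0) (tb : b.trace = 0)
    (tab : (a * b).trace = 0) (t3 : (b * a * b).trace = 0) (t4 : (a * b * a * b).trace = 0)
    (t5 : (b * a * b * a * b).trace = 0) (t6 : (a * b * a * b * a * b).trace = 0)
    (j : Matrix C X ℂ) (k : Matrix X C ℂ)
    (hJ : j * k = 1 + a) (hJ' : k * j = (9 : ℂ) • 1) :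
    ∃ x : Matrix X X ℂ, x = k * b * j ∧
      x * (x * (x * x)) - (11 : ℂ) • (x * (x * x)) - (159 : ℂ) • (x * x) + (459 : ℂ) • x + (2430 : ℂ) • 1 = 0 ∧
      x.trace = 0 ∧ (x * x).trace = 18 * Fintype.card X ∧ (x * (x * x)).trace = 18 * Fintype.card X := by
  obtain ⟨x, hx⟩ : ∃ x, x = k * b * j := ⟨_, rfl⟩
  obtain ⟨y, hy⟩ : ∃ y, y = (1 + a) * b := ⟨_, rfl⟩
  have h1 : j * x = y * j := by
    rw [hx, hy, ← hJ, ← Matrix.mul_assoc, ← Matrix.mul_assoc]
  have h2 : (1 + a) * j = (9 : ℂ) • j := by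
    rw [← hJ, Matrix.mul_assoc, hJ', Matrix.mul_smul, Matrix.mul_one]
  have hk : k * (1 + a) = (9 : ℂ) • k := by
    rw [← hJ, ← Matrix.mul_assoc, hJ', Matrix.smul_mul, Matrix.one_mul]
  have step : ∀ z : Matrix X X ℂ, j * (x * z) = y * (j * z) := by
    intro z
    rw [← Matrix.mul_assoc, h1, Matrix.mul_assoc]
  have hcard : (Fintype.card C : ℂ) = 9 * Fintype.card X := by
    rw [← trace_e ta, ← hJ, Matrix.trace_mul_comm, hJ', Matrix.trace_smul, Matrix.trace_one, smul_eq_mul]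
  have t1 : x.trace = 0 := by
    rw [hx, Matrix.trace_mul_comm, ← Matrix.mul_assoc, hJ, trace_eb tb tab]
  have t2 : (x * x).trace = 18 * Fintype.card X := by
    have e : (x * x).trace = ((1 + a) * b * ((1 + a) * b)).trace := by
      conv_lhs => rw [hx]
      rw [Matrix.mul_assoc, Matrix.mul_assoc, Matrix.trace_mul_comm, ← hx, h1, hy]
      rw [Matrix.mul_assoc b, Matrix.mul_assoc ((1 + a) * b), hJ, Matrix.trace_mul_comm, ← Matrix.mul_assoc]
    rw [e, trace_sq hb ta tb tab t3 t4, hcard]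
    ring
  have t3' : (x * (x * x)).trace = 18 * Fintype.card X := by
    have e : (x * (x * x)).trace = ((1 + a) * b * ((1 + a) * b * ((1 + a) * b))).trace := by
      conv_lhs => rw [hx]
      rw [Matrix.mul_assoc, Matrix.mul_assoc, Matrix.trace_mul_comm, ← hx, step, h1, hy]
      rw [Matrix.mul_assoc b, Matrix.mul_assoc ((1 + a) * b), Matrix.mul_assoc ((1 + a) * b), hJ,
        Matrix.trace_mul_comm]
      congr 1
      noncomm_ring
    rw [e, trace_cb ha hb ta tb tab t3 t4 t5 t6, hcard]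
    ring
  refine ⟨x, hx, ?_, t1, t2, t3'⟩
  -- the relation
  have hrel := HexAlg.rel ha hb hab
  rw [← hy] at hrel
  simp only [lit] at hrel
  have h3 : (9 : ℂ) • (j * (x * (x * (x * x)) - (11 : ℂ) • (x * (x * x)) - (159 : ℂ) • (x * x) + (459 : ℂ) • x +
      (2430 : ℂ) • 1)) = 0 := by
    have h4 := congrArg (fun m : Matrix C C ℂ => m * j) hrel
    simp only [Matrix.zero_mul, Matrix.add_mul, Matrix.sub_mul, Matrix.smul_mul, Matrix.mul_assoc] at h4
    have h2' : j + a * j = (9 : ℂ) • j := by rw [← h2, Matrix.add_mul, Matrix.one_mul]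
    simp only [Matrix.one_mul, h2', Matrix.mul_smul] at h4
    rw [← h4]
    simp only [Matrix.mul_add, Matrix.mul_sub, Matrix.mul_smul, step, h1, Matrix.mul_one, smul_add, smul_sub]
    simp only [smul_comm (9 : ℂ)]
  have h5 : j * (x * (x * (x * x)) - (11 : ℂ) • (x * (x * x)) - (159 : ℂ) • (x * x) + (459 : ℂ) • x +
      (2430 : ℂ) • 1) = 0 := (smul_eq_zero.1 h3).resolve_left (by norm_num)
  have h6 := congrArg (fun m => k * m) h5
  simp only [Matrix.mul_zero] at h6
  rw [← Matrix.mul_assoc, hJ', Matrix.smul_mul, Matrix.one_mul] at h6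
  exact (smul_eq_zero.1 h6).resolve_left (by norm_num)

end Col

section Idem

open Cfsg Cfsg.Agent.H996.Deg.IrrRank MulAction

variable {X : Type*} [Fintype X]

/-- the four idempotents -/
noncomputable def Q (x : Matrix X X ℂ) : Fin 4 → Matrix X X ℂ :=
  ![(1 / 7371 : ℂ) • (x * (x * x) + (7 : ℂ) • (x * x) - (33 : ℂ) • x - (135 : ℂ) • 1),
    (-1 / 1456 : ℂ) • (x * (x * x) - (6 : ℂ) • (x * x) - (189 : ℂ) • x - (486 : ℂ) • 1),
    (1 / 1008 : ℂ) • (x * (x * x) - (14 : ℂ) • (x * x) - (117 : ℂ) • x + (810 : ℂ) • 1),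
    (-1 / 2268 : ℂ) • (x * (x * x) - (20 : ℂ) • (x * x) + (21 : ℂ) • x + (270 : ℂ) • 1)]

theorem sum_Q (x : Matrix X X ℂ) : ∑ k, Q x k = 1 := by
  rw [Fin.sum_univ_four]
  simp only [Q, Matrix.cons_val]
  module

theorem idem_Q {x : Matrix X X ℂ} (h : x * (x * (x * x)) - (11 : ℂ) • (x * (x * x)) - (159 : ℂ) • (x * x) +
    (459 : ℂ) • x + (2430 : ℂ) • 1 = 0) (k : Fin 4) : Q x k * Q x k = Q x k := by
  have h' : x * (x * (x * x)) = (11 : ℂ) • (x * (x * x)) + (159 : ℂ) • (x * x) - (459 : ℂ) • x - (2430 : ℂ) • 1 := by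
    rw [← sub_eq_zero, ← h]
    module
  fin_cases k
  · refine idem_aux (x := x) (t := 18) (c2 := 7) (c1 := -33) (c0 := -135) ?_ ?_ (by norm_num)
    · module
    · simp only [Matrix.mul_sub, Matrix.mul_add, Matrix.mul_smul, Matrix.mul_one, h']
      module
  · refine idem_aux (x := x) (t := 5) (c2 := -6) (c1 := -189) (c0 := -486) ?_ ?_ (by norm_num)
    · module
    · simp only [Matrix.mul_sub, Matrix.mul_smul, Matrix.mul_one, h']
      module
  · refine idem_aux (x := x) (t := -3) (c2 := -14) (c1 := -117) (c0 := 810) ?_ ?_ (by norm_num)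
    · module
    · simp only [Matrix.mul_sub, Matrix.mul_add, Matrix.mul_smul, Matrix.mul_one, h']
      module
  · refine idem_aux (x := x) (t := -9) (c2 := -20) (c1 := 21) (c0 := 270) ?_ ?_ (by norm_num)
    · module
    · simp only [Matrix.mul_sub, Matrix.mul_add, Matrix.mul_smul, Matrix.mul_one, h']
      module

theorem trace_Q {x : Matrix X X ℂ} (t1 : x.trace = 0) (t2 : (x * x).trace = 18 * Fintype.card X)
    (t3 : (x * (x * x)).trace = 18 * Fintype.card X) :
    (Q x 0).trace = (Fintype.card X : ℂ) / 819 ∧ (Q x 1).trace = 324 * ((Fintype.card X : ℂ) / 819) ∧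
    (Q x 2).trace = 468 * ((Fintype.card X : ℂ) / 819) ∧ (Q x 3).trace = 26 * ((Fintype.card X : ℂ) / 819) := by
  refine ⟨?_, ?_, ?_, ?_⟩ <;>
  · simp only [Q, Matrix.cons_val, Matrix.trace_smul, Matrix.trace_sub, Matrix.trace_add, t1, t2, t3, Matrix.trace_one,
      smul_eq_mul]
    ring

/-- **The degrees of the constituents** -/
theorem degrees {G : Type*} [Group G] [Fintype G] [MulAction G X] [Nonempty X] {x : Matrix X X ℂ} (hx : Inv G x)
    (h : x * (x * (x * x)) - (11 : ℂ) • (x * (x * x)) - (159 : ℂ) • (x * x) + (459 : ℂ) • x + (2430 : ℂ) • 1 = 0)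
    (t1 : x.trace = 0) (t2 : (x * x).trace = 18 * Fintype.card X) (t3 : (x * (x * x)).trace = 18 * Fintype.card X)
    (hr : Nat.card (orbitRel.Quotient G (X × X)) ≤ 4) :
    ∃ d : ℕ, Fintype.card X = 819 * d ∧ d ≠ 0 ∧
      ∀ m ∈ ({1, 324, 468, 26} : Finset ℕ), ∃ χ : IrrCharacter G, charDegree (χ : G → ℂ) = m * d := by
  obtain ⟨q0, q1, q2, q3⟩ := trace_Q t1 t2 t3
  have hX : (Fintype.card X : ℂ) ≠ 0 := by exact_mod_cast Fintype.card_ne_zero
  have hX' : (Fintype.card X : ℂ) / 819 ≠ 0 := div_ne_zero hX (by norm_num)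
  have hinv : ∀ k, Inv G (Q x k) := by
    intro k
    have h2 := hx.mul hx
    have h3 := hx.mul h2
    have h1 : Inv G (1 : Matrix X X ℂ) := Inv.one
    fin_cases k
    · exact ((((h3.add (h2.smul 7)).sub (hx.smul 33)).sub (h1.smul 135)).smul _)
    · exact ((((h3.sub (h2.smul 6)).sub (hx.smul 189)).sub (h1.smul 486)).smul _)
    · exact ((((h3.sub (h2.smul 14)).sub (hx.smul 117)).add (h1.smul 810)).smul _)
    · exact ((((h3.sub (h2.smul 20)).add (hx.smul 21)).add (h1.smul 270)).smul _)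
  have key := exists_irr (G := G) (Q x) hinv (idem_Q h) (by
    intro k
    fin_cases k
    · exact q0 ▸ hX'
    · exact q1 ▸ mul_ne_zero (by norm_num) hX'
    · exact q2 ▸ mul_ne_zero (by norm_num) hX'
    · exact q3 ▸ mul_ne_zero (by norm_num) hX') (sum_Q x) (by rw [Fintype.card_fin]; exact hr)
  obtain ⟨χ₀, e0⟩ := key 0
  obtain ⟨χ₁, e1⟩ := key 1
  obtain ⟨χ₂, e2⟩ := key 2
  obtain ⟨χ₃, e3⟩ := key 3
  rw [q0] at e0
  rw [q1, ← e0] at e1
  rw [q2, ← e0] at e2
  rw [q3, ← e0] at e3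
  refine ⟨charDegree (χ₀ : G → ℂ), ?_, ?_, ?_⟩
  · have h5 : (Fintype.card X : ℂ) = 819 * charDegree (χ₀ : G → ℂ) := by
      rw [e0]; ring
    exact_mod_cast h5
  · intro h5
    rw [h5, Nat.cast_zero] at e0
    exact hX' e0.symm
  · intro m hm
    simp only [Finset.mem_insert, Finset.mem_singleton] at hm
    rcases hm with rfl | rfl | rfl | rfl
    · exact ⟨χ₀, by rw [one_mul]⟩
    · exact ⟨χ₁, by exact_mod_cast e1⟩
    · exact ⟨χ₂, by exact_mod_cast e2⟩
    · exact ⟨χ₃, by exact_mod_cast e3⟩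

end Idem

end Cfsg.Agent.H296.KF.Hexagon
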