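import Cfsg.Agent.H996.Deg.GThree
import Cfsg.Agent.H296.KF.Hexagon
import Cfsg.Agent.H115.HC.TwDFour

/-!
# The degrees `1, 324, 468, 26` of `³D₄(2)`

(after `Cfsg.Agent.H996.Deg.GThree`)
-/

set_option autoImplicit false
set_option linter.unusedSectionVars false
set_option linter.unusedVariables false

namespace Cfsg.Agent.H296.KF.TwD

open Module Cfsg Cfsg.Agent.Tits.Core Cfsg.Agent.Tits.Core.Bldg Cfsg.Agent.Tits.Exchange Cfsg.Agent.H249 MulAction
  Cfsg.Agent.H996.Deg Cfsg.Agent.H996.Deg.Bd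
  Cfsg.Agent.H996.Deg.CoxPar Cfsg.Agent.H996.Deg.Hk Cfsg.Agent.H996.Deg.Hex Classical
  Cfsg.Agent.ChevalleyStructure.CoxeterGeom CoxeterSystem

universe u v

section Bd

variable {I : Type*} [DecidableEq I] [Fintype I] {W : Type v} {Y : Type u} {C : Type*} [Group W] [Group Y]
  {M : CoxeterMatrix I} {cs : CoxeterSystem M W} {p : ℕ} [MulAction Y C] {D : Dat Y I p} {Δ : Bldg cs C} {c : C}

/-- **The degrees of the constituents of `1_P^G`**, type `G₂`, root groups of order eight and two -/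
theorem degrees (S : Bd D Δ c) {A : I → I → ℤ} (h : IsCartan M A) [Fintype Y] [Fintype C] {i j : I} (hij : i ≠ j)
    (hM : M i j = 6) (hi : Nat.card (D.X i) = 8) (hj : Nat.card (D.X j) = 2) (hdc : Nat.card (DC (cs.simple i)) ≤ 4) :
    ∃ d : ℕ, (D.P i).index = 819 * d ∧ d ≠ 0 ∧
      ∀ m ∈ ({1, 324, 468, 26} : Finset ℕ), ∃ χ : IrrCharacter Y, charDegree (χ : Y → ℂ) = m * d := by
  have : Fintype (Y ⧸ D.P i) := Fintype.ofFinite _
  obtain ⟨hab, ta, tb, tab, t3, t4, t5, t6⟩ := rels h Δ hij hM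
  have hcast : ∀ x : Matrix C C ℂ, ((8 : ℕ) : ℂ) • (1 : Matrix C C ℂ) + (((8 : ℕ) : ℂ) - 1) • x = 8 + 7 * x := by
    intro x
    have e1 : (8 : Matrix C C ℂ) = (8 : ℂ) • 1 := by rw [← lit, mul_one]
    rw [lit, e1]
    norm_num
  have hcast' : ∀ x : Matrix C C ℂ, ((2 : ℕ) : ℂ) • (1 : Matrix C C ℂ) + (((2 : ℕ) : ℂ) - 1) • x = 2 + x := by
    intro x
    have e1 : (2 : Matrix C C ℂ) = (2 : ℂ) • 1 := by rw [← lit, mul_one]
    rw [e1]
    norm_num
  have ha := T_sq Δ (i := i) (q := 8) (fun x => by rw [S.card_panel, hi])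
  have hb := T_sq Δ (i := j) (q := 2) (fun x => by rw [S.card_panel, hj])
  rw [hcast] at ha
  rw [hcast'] at hb
  have hJ : J (S.pn i) * (J (S.pn i)).transpose = 1 + T Δ (cs.simple i) := by
    ext y z
    rw [J_mul_transpose, Matrix.add_apply, Matrix.one_apply, T_apply]
    have hs1 : cs.simple i ≠ 1 := by
      intro h
      have := cs.length_simple i
      rw [h, cs.length_one] at this
      exact absurd this (by norm_num)
    simp only [S.pn_eq_iff]
    by_cases h1 : y = z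
    · subst h1
      rw [Δ.δ_self, if_pos (Or.inl rfl), if_pos rfl, if_neg (Ne.symm hs1), add_zero]
    · have h2 : Δ.δ y z ≠ 1 := fun h => h1 ((Δ.eq_one _ _).1 h)
      rw [if_neg h1, zero_add]
      simp only [h2, false_or]
  have hJ' : (J (S.pn i)).transpose * J (S.pn i) = (9 : ℂ) • 1 := by
    ext x y
    rw [transpose_mul_J, Matrix.smul_apply, Matrix.one_apply]
    by_cases hxy : x = y
    · subst hxy
      rw [if_pos rfl, if_pos rfl, smul_eq_mul, mul_one]
      induction x using QuotientGroup.induction_on with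
      | _ g =>
      have e1 : Nat.card {y // S.pn i y = (g : Y ⧸ D.P i)} = 9 := by
        have e2 : ∀ y, S.pn i y = (g : Y ⧸ D.P i) ↔ y ∈ insert (g • c) {y | Δ.δ (g • c) y = cs.simple i} := by
          intro y
          rw [← S.pn_smul, eq_comm, S.pn_eq_iff, Set.mem_insert_iff, Δ.eq_one, eq_comm]
          rfl
        have e3 : Nat.card {y // S.pn i y = (g : Y ⧸ D.P i)} =
            (insert (g • c) {y | Δ.δ (g • c) y = cs.simple i} : Set C).ncard := by
          rw [← Nat.card_coe_set_eq]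
          exact Nat.card_congr (Equiv.subtypeEquivRight e2)
        rw [e3, Set.ncard_insert_of_notMem, ← Nat.card_coe_set_eq]
        · have h6 := S.card_panel i (g • c)
          rw [hi] at h6
          have h7 : Nat.card ↑{y | Δ.δ (g • c) y = cs.simple i} = 8 := h6
          rw [h7]
        · intro h1
          have h2 : Δ.δ (g • c) (g • c) = cs.simple i := h1
          rw [Δ.δ_self] at h2
          have := cs.length_simple i
          rw [← h2, cs.length_one] at this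
          omega
      rw [e1]
      norm_num
    · rw [if_neg hxy, if_neg hxy, smul_zero]
  obtain ⟨x, hx, hrel, x1, x2, x3⟩ := Hexagon.op (T Δ (cs.simple i)) (T Δ (cs.simple j)) ha hb hab ta tb tab t3 t4 t5 t6
    (J (S.pn i)) (J (S.pn i)).transpose hJ (by convert hJ')
  have hJg : ∀ (g : Y) (f : C) (y : Y ⧸ D.P i), J (S.pn i) (g • f) (g • y) = J (S.pn i) f y := by
    intro g f y
    rw [J_apply, J_apply]
    by_cases h1 : S.pn i f = y
    · rw [if_pos h1, if_pos (by rw [S.pn_equi, h1])]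
    · rw [if_neg h1, if_neg (fun h2 => h1 (by rw [S.pn_equi] at h2; exact smul_left_cancel g h2))]
  have hinv : IrrRank.Inv Y x := by
    intro g y z
    rw [hx, Matrix.mul_apply, Matrix.mul_apply, ← Equiv.sum_comp (MulAction.toPerm g)]
    refine Finset.sum_congr rfl fun e _ => ?_
    rw [MulAction.toPerm_apply, Matrix.mul_apply, Matrix.mul_apply, ← Equiv.sum_comp (MulAction.toPerm g)]
    congr 1
    · refine Finset.sum_congr rfl fun f _ => ?_
      rw [MulAction.toPerm_apply, Matrix.transpose_apply, Matrix.transpose_apply, hJg, T_apply, T_apply, S.iso]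
    · exact hJg g e z
  obtain ⟨d, h1, h2, h3⟩ := Hexagon.degrees (G := Y) hinv hrel x1 x2 x3 (by rw [S.card_orbits]; exact hdc)
  refine ⟨d, ?_, h2, h3⟩
  rw [Subgroup.index, Nat.card_eq_fintype_card, h1]

end Bd

section RGD

open Cfsg Cfsg.Agent.Tits.Roots
  Cfsg.Agent.Nodes.Reps Cfsg.Agent.Nodes.BNOf Cfsg.Agent.Nodes.StabComb
  Cfsg.Agent.Nodes.Bruhat Cfsg.Agent.Nodes.OppDec Cfsg.Agent.Nodes.LeviDec Cfsg.Agent.H167.SteinbergRGD
open Cfsg.Agent.H249.OfRGD

variable {I W Y : Type*} [Fintype I] [DecidableEq I] [Group W] [Group Y] {M : CoxeterMatrix I}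
  {cs : CoxeterSystem M W} {A : I → I → ℤ} {h : IsCartan M A} {p : ℕ} {T : Subgroup Y} {n : I → Y}
  {X : (I → ℤ) → Subgroup Y}

theorem degrees_of_rgd (R : RGD cs h p T n X) [Finite W] [Fintype Y] (hp : p.Prime) (hG : GG cs h T X = ⊤)
    {i j : I} (hij : i ≠ j) (hI : ∀ k : I, k = i ∨ k = j) (hM : M i j = 6)
    (hi : Nat.card (X (sr i)) = 8) (hj : Nat.card (X (sr j)) = 2) :
    ∃ d : ℕ, ((dat R hp hG).P i).index = 819 * d ∧ d ≠ 0 ∧
      ∀ m ∈ ({1, 324, 468, 26} : Finset ℕ), ∃ χ : IrrCharacter Y, charDegree (χ : Y → ℂ) = m * d := by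
  obtain ⟨Δ, S⟩ := exists_bd R hp hG
  have := Fintype.ofFinite (Y ⧸ RGD.B cs h T X)
  exact degrees S h hij hM hi hj (Bd.card_DC_le hI hM)

end RGD

section D4

open Cfsg Cfsg.Lie Cfsg.Agent.Tits.Roots Cfsg.Agent.Nodes.Reps Cfsg.Agent.Nodes.BNOf
  Cfsg.Agent.Nodes.BNOf.RGD Cfsg.Agent.Nodes.RGDChev Cfsg.Agent.Nodes.RGDFold
open Cfsg.Agent.Nodes.Bruhat Cfsg.Agent.Nodes.LeviDec
open Cfsg.Agent.ChevalleyStructure Cfsg.Agent.ChevalleyStructure.TwistedU
open Cfsg.Agent.Nodes.RGDFoldSL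
open Cfsg.Agent.ChevalleyStructure.SL2Hom (up lo mem_closure_SL2)
open Cfsg.Agent.BiChar.TwDFour

/-- the order of the root group of the node `1` -/
theorem card_X1 {K : Type} [Field K] [Fintype K] {q : ℕ} {φ : K →+* K} (hφ : ∀ x, φ x = x ^ q)
    (hle : twistedD4 K q ≤ D4Fixed.fix φ)
    (hK : Fintype.card K = q ^ 3) : Nat.card (Nodes.RGDTwD4.X φ q (sr 1)) = q ^ 3 := by
  have h1 : Nat.card (Fx φ ((Nodes.RGDTwNode.D4.rest 1).length + 1)) = q ^ 3 := by
    rw [← hK, ← Nat.card_eq_fintype_card]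
    refine Nat.card_congr (Equiv.subtypeUnivEquiv fun a => ?_)
    rw [mem_Fx]
    show φ (φ (φ a)) = a
    rw [hφ, hφ, hφ, ← pow_mul, ← pow_mul]
    have e : q * (q * q) = q ^ 3 := by ring
    rw [e, ← hK]
    exact FiniteField.pow_card a
  refine Eq.trans ?_ h1
  symm
  refine Nat.card_congr (Equiv.ofBijective (fun t => (⟨Ph hφ hle 1 (up t), (mem_X hφ hle 1 _).2 ⟨t, rfl⟩⟩ :
    Nodes.RGDTwD4.X φ q (sr 1))) ⟨fun a b hab => H115.HC.TwDFour.up_inj hφ hle 1 (congrArg Subtype.val hab), ?_⟩)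
  rintro ⟨g, hg⟩
  obtain ⟨t, ht⟩ := (mem_X hφ hle 1 g).1 hg
  exact ⟨t, Subtype.ext ht.symm⟩

/-- **Irreducible characters of the degrees `1, 324, 468, 26` (times `d`)** of `³D₄(2)` -/
theorem degrees_D4 {K : Type} [Field K] [Fintype K] (hK : Fintype.card K = 2 ^ 3) :
    ∃ d : ℕ, d ≠ 0 ∧ ∀ m ∈ ({1, 324, 468, 26} : Finset ℕ), ∃ χ : IrrCharacter ↥(twistedD4 K 2),
      charDegree (χ : ↥(twistedD4 K 2) → ℂ) = m * d := by
  have hq : IsPrimePow 2 := Nat.prime_two.isPrimePow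
  obtain ⟨φ, hφ⟩ := D4Fixed.exists_frob hq hK
  have hle := D4Fixed.twisted_le_fix hK hφ
  obtain ⟨p, hch⟩ := CharP.exists K
  have : Fact p.Prime := ⟨CharP.char_is_prime K p⟩
  have hfin : Finite ↥(twistedD4 K 2) := inferInstance
  have := Fintype.ofFinite ↥(twistedD4 K 2)
  have : Finite CoxeterMatrix.G₂.Group :=
    Nodes.RGDChev.finite_W Cfsg.Agent.BiChar.GTwo.isType CoxeterMatrix.G₂.toCoxeterSystem
  have R := Nodes.RGDTwD4.rgd (K := K) CoxeterMatrix.G₂.toCoxeterSystem hK hφ p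
  obtain ⟨d, -, h1, h2⟩ := degrees_of_rgd R Fact.out (H115.HC.TwDFour.GG_top hφ hK) (i := 1) (j := 0) (by decide)
    (by decide) (by decide) (by rw [card_X1 hφ hle hK]; norm_num)
    (by rw [H115.HC.TwDFour.card_X0 hφ hle hq.one_lt hK])
  exact ⟨d, h1, h2⟩

end D4

end Cfsg.Agent.H296.KF.TwD
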