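import Cfsg.Agent.H670.Reg.Defs
import Cfsg.Agent.H424.DegTools
import Cfsg.Agent.H296.KF.TwD

/-!
# S4919: `Kite` for `G₂(3)` and `³D₄(2)`
-/

set_option autoImplicit false

namespace Cfsg.Agent.H296.KF

open Cfsg Cfsg.Agent.H671.H5 Cfsg.Agent.H670.Reg

universe u v

theorem adj_congr {S : Type u} {S' : Type v} [Group S] [Group S'] (e : S ≃* S') {p q : ℕ} (h : Adj p q S') :
    Adj p q S := by
  have h1 : Cfsg.degreeGraph S = Cfsg.degreeGraph S' := H424.DegTools.degreeGraph_congr e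
  unfold H671.H5.Adj at *
  rw [h1]
  exact h

theorem Kite.congr {S : Type u} {S' : Type v} [Group S] [Group S'] (e : S ≃* S') (h : Kite S') : Kite S := by
  rcases h with ⟨u, v, w, z, h1, h2, h3, h4, h5, h6⟩ | ⟨u, a, b, c, d, h1, h2, h3, h4, h5, h6, h7, h8, h9, h10⟩
  · exact Or.inl ⟨u, v, w, z, h1, adj_congr e h2, adj_congr e h3, adj_congr e h4, adj_congr e h5, adj_congr e h6⟩
  · exact Or.inr ⟨u, a, b, c, d, h1, h2, h3, h4, h5, h6, adj_congr e h7, adj_congr e h8, adj_congr e h9,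
      adj_congr e h10⟩

theorem adj_of_deg {S : Type u} [Group S] {p q n : ℕ} (hp : p.Prime) (hq : q.Prime) (hpq : p ≠ q)
    (hn : ∃ χ : IrrCharacter S, charDegree (χ : S → ℂ) = n) (h : p * q ∣ n) : Adj p q S := by
  obtain ⟨χ, hχ⟩ := hn
  exact adj_iff.2 ⟨hpq, hp, hq, χ, by rw [hχ]; exact h⟩

/-- **`Kite` for `G₂(3)`** -/
theorem kite_g2 {S : Type u} [Group S] (h : ∃ (F : Type) (_ : Field F) (_ : Fintype F), Fintype.card F = 3 ∧
    Nonempty (S ≃* ↥(Lie.chevG2.group F))) : Kite S := by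
  obtain ⟨F, _, _, hF, ⟨e⟩⟩ := h
  refine Kite.congr e ?_
  obtain ⟨d, -, hd⟩ := H996.Deg.GThree.degrees_G2 (K := F) (by rw [Nat.card_eq_fintype_card, hF])
  have h104 := hd 104 (by decide)
  have h168 := hd 168 (by decide)
  have h91 := hd 91 (by decide)
  exact Or.inl ⟨2, 7, 3, 13, by norm_num,
    adj_of_deg (by norm_num) (by norm_num) (by norm_num) h168 (Dvd.dvd.mul_right (by norm_num) _),
    adj_of_deg (by norm_num) (by norm_num) (by norm_num) h168 (Dvd.dvd.mul_right (by norm_num) _),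
    adj_of_deg (by norm_num) (by norm_num) (by norm_num) h168 (Dvd.dvd.mul_right (by norm_num) _),
    adj_of_deg (by norm_num) (by norm_num) (by norm_num) h104 (Dvd.dvd.mul_right (by norm_num) _),
    adj_of_deg (by norm_num) (by norm_num) (by norm_num) h91 (Dvd.dvd.mul_right (by norm_num) _)⟩

/-- **`Kite` for `³D₄(2)`** -/
theorem kite_td4 {S : Type u} [Group S] (h : ∃ (F : Type) (_ : Field F) (_ : Fintype F), Fintype.card F = 2 ^ 3 ∧
    Nonempty (S ≃* ↥(Lie.twistedD4 F 2))) : Kite S := by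
  obtain ⟨F, _, _, hF, ⟨e⟩⟩ := h
  refine Kite.congr e ?_
  obtain ⟨d, -, hd⟩ := TwD.degrees_D4 hF
  have h468 := hd 468 (by decide)
  have hcard : Nat.card ↥(Lie.twistedD4 F 2) = 211341312 := by
    rw [S1067.result Nat.prime_two.isPrimePow hF]
    norm_num
  obtain ⟨χ, hχ⟩ := H115.HC.TwDFour.big (q := 2) Nat.prime_two.isPrimePow hF
  have h3 := hχ 3 (by norm_num) (by rw [hcard]; norm_num) (by norm_num)
  have h7 := hχ 7 (by norm_num) (by rw [hcard]; norm_num) (by norm_num)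
  have h13 := hχ 13 (by norm_num) (by rw [hcard]; norm_num) (by norm_num)
  exact Or.inl ⟨3, 13, 2, 7, by norm_num,
    adj_of_deg (by norm_num) (by norm_num) (by norm_num) h468 (Dvd.dvd.mul_right (by norm_num) _),
    adj_of_deg (by norm_num) (by norm_num) (by norm_num) h468 (Dvd.dvd.mul_right (by norm_num) _),
    adj_of_deg (by norm_num) (by norm_num) (by norm_num) h468 (Dvd.dvd.mul_right (by norm_num) _),
    adj_of_deg (by norm_num) (by norm_num) (by norm_num) ⟨χ, rfl⟩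
      (Nat.Coprime.mul_dvd_of_dvd_of_dvd (by norm_num) h3 h7),
    adj_of_deg (by norm_num) (by norm_num) (by norm_num) ⟨χ, rfl⟩
      (Nat.Coprime.mul_dvd_of_dvd_of_dvd (by norm_num) h13 h7)⟩

end Cfsg.Agent.H296.KF
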