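import Cfsg.Agent.H678.DG.Tits
import Cfsg.Agent.H296.KF.Kites

/-!
# S4919: `Kite` for the Tits group
-/

set_option autoImplicit false

namespace Cfsg.Agent.H296.KF

open Cfsg Cfsg.Agent.H671.H5 Cfsg.Agent.H670.Reg

universe u

/-- **`Kite` for the Tits group** -/
theorem kite_tits {S : Type u} [Group S] (h : Lie.IsoTits S) : Kite S := by
  obtain ⟨e⟩ := h
  obtain ⟨f⟩ := H707.RowTits.equiv
  refine Kite.congr (e.trans f) ?_
  have h78 := H678.DG.Tits.deg_78
  have h650 := H678.DG.Tits.deg_650
  exact Or.inl ⟨2, 13, 3, 5, by norm_num,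
    adj_of_deg (by norm_num) (by norm_num) (by norm_num) h78 (by norm_num),
    adj_of_deg (by norm_num) (by norm_num) (by norm_num) h78 (by norm_num),
    adj_of_deg (by norm_num) (by norm_num) (by norm_num) h78 (by norm_num),
    adj_of_deg (by norm_num) (by norm_num) (by norm_num) h650 (by norm_num),
    adj_of_deg (by norm_num) (by norm_num) (by norm_num) h650 (by norm_num)⟩

end Cfsg.Agent.H296.KF
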